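import Mathlib

set_option autoImplicit false

namespace Cfsg.Agent.Lib.Helper15.Syl8

/-- [GLUE] BFS description of a finitely generated subgroup. -/
theorem mem_closure_iff {X Y : Type*} [Group X] [Monoid Y] (v : X →* Y) (hv : Function.Injective v)
    {n k : ℕ} (m : Fin (n + 1) → Y) (g : Fin k → X) (nxt : Fin (n + 1) → Fin k → Fin (n + 1))
    (inv : Fin k → Fin k)
    (h0 : m 0 = 1)
    (hmul : ∀ i t, m i * v (g t) = m (nxt i t))
    (hinv : ∀ t, v (g t) * v (g (inv t)) = 1)
    (hpar : ∀ i : Fin (n + 1), i ≠ 0 → ∃ j : Fin (n + 1), j < i ∧ ∃ t, nxt j t = i) (x : X) :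
    x ∈ Subgroup.closure (Set.range g) ↔ ∃ i, v x = m i := by
  have hginv : ∀ t, (g t)⁻¹ = g (inv t) := by
    intro t
    have h1 : g t * g (inv t) = 1 := by
      apply hv
      rw [map_mul, map_one, hinv]
    exact inv_eq_of_mul_eq_one_right h1
  constructor
  · intro hx
    induction hx using Subgroup.closure_induction_right with
    | one => exact ⟨0, by rw [map_one, h0]⟩
    | mul_right x y hx hy ih =>
      obtain ⟨t, rfl⟩ := hy
      obtain ⟨i, hi⟩ := ih
      exact ⟨nxt i t, by rw [map_mul, hi, hmul]⟩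
    | mul_inv_cancel x y hx hy ih =>
      obtain ⟨t, rfl⟩ := hy
      obtain ⟨i, hi⟩ := ih
      exact ⟨nxt i (inv t), by rw [hginv, map_mul, hi, hmul]⟩
  · rintro ⟨i, hi⟩
    have key : ∀ N : ℕ, ∀ i : Fin (n + 1), i.val = N →
        ∃ y ∈ Subgroup.closure (Set.range g), v y = m i := by
      intro N
      induction N using Nat.strong_induction_on with
      | _ N ih =>
        intro i hiN
        by_cases hi0 : i = 0
        · subst hi0
          exact ⟨1, Subgroup.one_mem _, by rw [map_one, h0]⟩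
        · obtain ⟨j, hj, t, rfl⟩ := hpar i hi0
          obtain ⟨y, hy, hvy⟩ := ih j.val (by rw [← hiN]; exact hj) j rfl
          exact ⟨y * g t, Subgroup.mul_mem _ hy (Subgroup.subset_closure ⟨t, rfl⟩),
            by rw [map_mul, hvy, hmul]⟩
    obtain ⟨y, hy, hvy⟩ := key i.val i rfl
    have : x = y := hv (hi.trans hvy.symm)
    rw [this]
    exact hy

end Cfsg.Agent.Lib.Helper15.Syl8
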