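import Mathlib

set_option autoImplicit false

namespace Cfsg.Agent.Lib.Helper15.Syl8

/-- [SYL] a subgroup of the right order is isomorphic to every Sylow subgroup. -/
theorem sylow_equiv_of_card {G H : Type*} [Group G] [Finite G] [Group H] (p k r : ℕ) [Fact p.Prime]
    (hG : Nat.card G = p ^ k * r) (hr : ¬ p ∣ r) (j : H →* G) (hj : Function.Injective j)
    (hH : Nat.card H = p ^ k) (P : Sylow p G) : Nonempty (↥(P : Subgroup G) ≃* H) := by
  have hp := (Fact.out : p.Prime)
  have hr0 : r ≠ 0 := by
    rintro rfl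
    exact hr (dvd_zero p)
  have hfac : (Nat.card G).factorization p = k := by
    rw [hG, Nat.factorization_mul (pow_ne_zero _ hp.ne_zero) hr0, Finsupp.add_apply,
      hp.factorization_pow, Finsupp.single_eq_same, Nat.factorization_eq_zero_of_not_dvd hr,
      add_zero]
  have hcard : Nat.card j.range = p ^ (Nat.card G).factorization p := by
    rw [hfac, ← hH]
    exact (Nat.card_congr (MonoidHom.ofInjective hj).toEquiv).symm
  let S : Sylow p G := Sylow.ofCard j.range hcard
  have e1 : ↥(P : Subgroup G) ≃* ↥(S : Subgroup G) := Sylow.equiv P S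
  have e2 : ↥(S : Subgroup G) ≃* ↥j.range := MulEquiv.subgroupCongr (Sylow.coe_ofCard _ _)
  exact ⟨e1.trans (e2.trans (MonoidHom.ofInjective hj).symm)⟩

end Cfsg.Agent.Lib.Helper15.Syl8
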